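import Mathlib
import Cfsg.Agent.GT.TransferCocycle
import Cfsg.Agent.GT.TransferTate
import Cfsg.Agent.GT.PGroupFrattini

/-! The transfer commutes with automorphisms; a criterion for a normal `p`-complement. -/

set_option autoImplicit false

namespace Cfsg.Agent.NF

open Cfsg Cfsg.Agent.GT Cfsg.Agent.GT.Tr Subgroup

variable {G : Type*} [Group G] {H : Subgroup G} {A : Type*} [CommGroup A]

theorem transfer_section [H.FiniteIndex] [Fintype (G ⧸ H)] (φ : H →* A) (s : G ⧸ H → G)
    (hs : ∀ q, (s q : G ⧸ H) = q) (g : G) (hm : ∀ q, (s (g • q))⁻¹ * g * s q ∈ H) :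
    MonoidHom.transfer φ g = ∏ q, φ ⟨_, hm q⟩ := by
  have hh : ∀ q : G ⧸ H, q.out⁻¹ * s q ∈ H := fun q =>
    QuotientGroup.eq.1 (by rw [hs, QuotientGroup.out_eq'])
  have e : ∀ q, φ ⟨_, hm q⟩ = (φ ⟨_, hh (g • q)⟩)⁻¹ * trCocycle φ g q * φ ⟨_, hh q⟩ := fun q => by
    rw [trCocycle, ← map_inv, ← map_mul, ← map_mul]
    congr 1
    ext
    simp [mul_assoc]
  simp only [e, Finset.prod_mul_distrib, Finset.prod_inv_distrib]
  have e2 : ∏ q, φ ⟨_, hh (g • q)⟩ = ∏ q, φ ⟨_, hh q⟩ :=
    Equiv.prod_comp (MulAction.toPerm g) fun q => φ ⟨_, hh q⟩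
  rw [transfer_eq_prod_trCocycle, e2, mul_comm _⁻¹, inv_mul_cancel_right]

theorem transfer_aut [H.FiniteIndex] (σ : MulAut G) (hσ : ∀ x, σ x ∈ H ↔ x ∈ H) (φ ψ : H →* A)
    (h : ∀ x : H, ψ x = φ ⟨σ x, (hσ x).2 x.2⟩) (g : G) :
    MonoidHom.transfer φ (σ g) = MonoidHom.transfer ψ g := by
  classical
  have := H.fintypeQuotientOfFiniteIndex
  let e : G ⧸ H ≃ G ⧸ H := Quotient.congr σ.toEquiv fun a b => by
    rw [QuotientGroup.leftRel_apply, QuotientGroup.leftRel_apply]
    simpa using (hσ (a⁻¹ * b)).symm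
  have he : ∀ x : G, e (x : G ⧸ H) = (σ x : G) := fun _ => rfl
  have h1 : ∀ r, σ g • e r = e (g • r) := fun r => by
    obtain ⟨x, rfl⟩ := QuotientGroup.mk_surjective r
    rw [he, MulAction.Quotient.smul_mk, MulAction.Quotient.smul_mk, he, smul_eq_mul, smul_eq_mul,
      map_mul]
  have hs : ∀ q, ((σ (e.symm q).out : G) : G ⧸ H) = q := fun q => by
    rw [← he, QuotientGroup.out_eq', e.apply_symm_apply]
  rw [transfer_section φ (fun q => σ (e.symm q).out) hs (σ g) (fun q => by
    rw [mul_assoc, ← QuotientGroup.eq, hs, ← smul_eq_mul, ← MulAction.Quotient.smul_mk, hs]),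
    transfer_eq_prod_trCocycle, ← e.prod_comp]
  refine Finset.prod_congr rfl fun r _ => ?_
  rw [trCocycle, h]
  congr 1
  ext
  simp [h1]

theorem transfer_comp [H.FiniteIndex] {B : Type*} [CommGroup B] (φ : H →* A) (τ : A →* B) (g : G) :
    MonoidHom.transfer (τ.comp φ) g = τ (MonoidHom.transfer φ g) := by
  classical
  have := H.fintypeQuotientOfFiniteIndex
  rw [transfer_eq_prod_trCocycle, transfer_eq_prod_trCocycle, map_prod]
  rfl

theorem exists_mem_sylow [Finite G] {p : ℕ} [Fact p.Prime] (P : Sylow p G) {C : Type*} [Group C]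
    (hC : IsPGroup p C) {f : G →* C} (hf : Function.Surjective f) (c : C) :
    ∃ x ∈ (P : Subgroup G), f x = c := by
  have := (P.mapSurjective hf).3 (hC.to_subgroup ⊤) le_top
  exact (this.le (mem_top c) : c ∈ (P : Subgroup G).map f)

/-- If the automorphisms fixing `P` are transitive on `P ∖ N`, there is a normal `p`-complement. -/
theorem pnil_of_trans [Finite G] {p : ℕ} [Fact p.Prime] (P : Sylow p G) {N : Subgroup G} [N.Normal]
    (hN : N ≠ ⊤) (hp : IsPGroup p (G ⧸ N))
    (tr : ∀ x ∈ (P : Subgroup G), x ∉ N → ∀ y ∈ (P : Subgroup G), y ∉ N →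
      ∃ σ : MulAut G, (∀ z, σ z ∈ (P : Subgroup G) ↔ z ∈ (P : Subgroup G)) ∧ σ x = y) :
    HasNormalPComplement p G := by
  have ab : ∀ {C : Type _} [Group C], Function.Surjective (Abelianization.of : C →* _) :=
    QuotientGroup.mk_surjective
  have ab' : Function.Surjective (Abelianization.of : (G ⧸ N) →* _) := QuotientGroup.mk_surjective
  let V := MonoidHom.transfer (Abelianization.of : (P : Subgroup G) →* _)
  let π : G →* Abelianization (G ⧸ N) := Abelianization.of.comp (QuotientGroup.mk' N)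
  have pB := hp.of_surjective _ ab'
  have pA := P.2.of_surjective _ (ab (C := (P : Subgroup G)))
  have nt : Nontrivial (G ⧸ N) := QuotientGroup.nontrivial_iff.2 hN
  have := hp.isNilpotent
  obtain ⟨b, -, hb⟩ := SetLike.exists_of_lt (Group.IsSolvable.commutator_lt_top_of_nontrivial (G ⧸ N))
  obtain ⟨x, hx, ex⟩ := exists_mem_sylow P pB (f := π) (ab'.comp (QuotientGroup.mk'_surjective N))
    (Abelianization.of b)
  let τ := Abelianization.lift (π.comp (P : Subgroup G).subtype)
  have e1 : τ (V x) = π x ^ (P : Subgroup G).index := by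
    rw [← transfer_comp]
    exact transfer_eq_pow_of_conj _ ⟨x, hx⟩ fun k t hk => by
      simp [τ, mul_comm (π t)⁻¹]
  obtain ⟨y, hy⟩ := ab (V x)
  have yN : (y : G) ∉ N := fun l => hb (by
    have e2 : π y = 1 := by simp [π, (QuotientGroup.eq_one_iff _).2 l]
    have e3 : π x ^ (P : Subgroup G).index = 1 := by rw [← e1, ← hy, ← e2]; simp [τ]
    obtain ⟨k, hk⟩ := pB (π x)
    have e4 : π x = 1 := by
      simpa [((Nat.Prime.coprime_iff_not_dvd Fact.out).2 P.not_dvd_index).pow_left k] using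
        pow_gcd_eq_one.2 ⟨hk, e3⟩
    rwa [ex, ← MonoidHom.mem_ker, Abelianization.ker_of] at e4)
  have k1 : ∀ z : (P : Subgroup G), (z : G) ∉ N → Abelianization.of z ∈ V.range := fun z hz => by
    obtain ⟨σ, h1, h2⟩ := tr y y.2 yN z z.2 hz
    let s : (P : Subgroup G) →* (P : Subgroup G) :=
      (σ.toMonoidHom.comp (P : Subgroup G).subtype).codRestrict _ fun w => (h1 w).2 w.2
    refine ⟨σ x, ?_⟩
    rw [transfer_aut σ h1 _ ((Abelianization.map s).comp Abelianization.of) fun _ => rfl,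
      transfer_comp, ← hy, Abelianization.map_of]
    exact congrArg _ (Subtype.ext h2)
  have k2 : Function.Surjective V := fun c => by
    obtain ⟨z, rfl⟩ := ab c
    by_cases l : (z : G) ∈ N
    · simpa using mul_mem (k1 (z * y) fun a => yN ((mul_mem_cancel_left l).1 a)) (inv_mem (k1 y yN))
    · exact k1 z l
  let W := Abelianization.lift (V.comp (P : Subgroup G).subtype)
  have k3 : Function.Injective W := Finite.injective_iff_surjective.2 fun c => by
    obtain ⟨z, hz, rfl⟩ := exists_mem_sylow P pA k2 c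
    exact ⟨Abelianization.of ⟨z, hz⟩, by simp [W]⟩
  refine hasNormalPComplement_of_commutator_inf_le_frattini P fun z hz =>
    ⟨⟨z, hz.2⟩, PG.commutator_le_frattini P.2 ?_, rfl⟩
  rw [← Abelianization.ker_of]
  refine k3 ?_
  simpa [W] using transfer_eq_one_of_mem_commutator _ hz.1

end Cfsg.Agent.NF
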